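import Cfsg.Agent.H706.PB.Defs
import Cfsg.Agent.H908.BR.RankOne

/-!
# S4884: the row `²G₂(q)`, cross characteristic (helper69)

* `real_of_rank_one` : the real version of `H908.BR.rowInt_of_rank_one`;
* `real_ree`, **`rowForR_ree`** : the field `ree` of `H706.PB.Rows`.
-/

set_option autoImplicit false
set_option linter.unusedSectionVars false

namespace Cfsg.Agent.H69.PB

open Cfsg Subgroup Cfsg.Agent.H116.RatB0 Cfsg.Agent.H145.BR Cfsg.Agent.H706.PB Cfsg.Agent.H908.BR
open scoped Pointwise

universe u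

section general

variable {S : Type u} [Group S]

/-- **the criterion** for groups with two double cosets -/
theorem real_of_rank_one [Finite S] {p : ℕ} [Fact p.Prime] {B : Subgroup S} {n : S}
    (hB : ∀ g : S, g ∈ B ∨ ∃ b ∈ B, ∃ b' ∈ B, g = b * n * b') (hi : 2 < B.index) (hd : ¬ p ∣ B.index - 1)
    (hd2 : ¬ 2 ∣ B.index - 1)
    (hp : p ∣ B.index ∨ ∃ Q : Subgroup S, IsPGroup p Q ∧ Q ≤ B ∧ centralizer (Q : Set S) ≤ B) : RowReal p S := by
  classical
  intro M hM
  have h2 := two_trans_of hB
  have hcard : Nat.card (S ⧸ B) = B.index := rfl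
  have hirr := (Cfsg.Agent.S0157.result (G := S) (S ⧸ B) (by rw [hcard]; omega)).2 h2
  set θ : IrrCharacter S := ⟨_, hirr⟩ with hθ
  have hval : ∀ g, (θ : S → ℂ) g = fixedPointCharacter B g - 1 := fun g => rfl
  have htop : ∀ g : S, fixedPointCharacter (⊤ : Subgroup S) g = 1 := by
    intro g
    unfold fixedPointCharacter
    have : Nat.card (MulAction.fixedBy (S ⧸ (⊤ : Subgroup S)) g) = 1 := by
      rw [Nat.card_eq_one_iff_unique]
      have hs : Subsingleton (S ⧸ (⊤ : Subgroup S)) := QuotientGroup.subsingleton_quotient_top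
      exact ⟨⟨fun x y => Subtype.ext (Subsingleton.elim _ _)⟩, ⟨⟨((1 : S) : S ⧸ (⊤ : Subgroup S)), Subsingleton.elim _ _⟩⟩⟩
    rw [this, Nat.cast_one]
  have hone : fixedPointCharacter B 1 = (B.index : ℂ) := by
    unfold fixedPointCharacter
    congr 1
    rw [← hcard]
    refine Nat.card_congr ((Equiv.setCongr ?_).trans (Equiv.Set.univ _))
    rw [Set.eq_univ_iff_forall]
    intro x
    rw [MulAction.mem_fixedBy, one_smul]
  have hdeg : charDegree (θ : S → ℂ) = B.index - 1 := by
    have h3 : (charDegree (θ : S → ℂ) : ℂ) = (θ : S → ℂ) 1 := (Blocks.Knorr.charDegree_eq θ.2).symm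
    rw [hval, hone] at h3
    have h4 : ((B.index - 1 : ℕ) : ℂ) = (B.index : ℂ) - 1 := by
      rw [Nat.cast_sub (by omega), Nat.cast_one]
    rw [← h4] at h3
    exact_mod_cast h3
  have hdeg' : ¬ p ∣ charDegree (θ : S → ℂ) := by rw [hdeg]; exact hd
  refine ⟨θ, ?_, ?_, by rw [hdeg]; exact hd2, hdeg', ?_⟩
  · refine mem_of_alt hM (Finset.univ : Finset Bool) (fun i => if i then 1 else -1) (fun i => if i then B else ⊤) θ
      (fun g => ?_) hdeg' ?_
    · rw [hval]
      simp [htop, sub_eq_add_neg]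
    · intro i _
      cases i
      · right
        simp only [Bool.false_eq_true, if_false]
        exact Nat.ModEq.refl _
      · simp only [if_true]
        rcases hp with h | ⟨Q, hQ1, hQ2, hQ3⟩
        · exact Or.inl h
        · exact Or.inr (reg_modEq_of_le hQ1 hQ2 hQ3)
  · intro h
    have h1 := congrFun h 1
    rw [hval, hone] at h1
    have h2 : (B.index : ℂ) = 2 := by linear_combination h1
    have h3 : B.index = 2 := by exact_mod_cast h2
    omega
  · intro g
    have h5 : (θ : S → ℂ) g = (((Nat.card (MulAction.fixedBy (S ⧸ B) g) : ℤ) - 1 : ℤ) : ℂ) := by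
      rw [hval]
      unfold fixedPointCharacter
      push_cast
      rfl
    rw [h5, Complex.intCast_im]

end general

section ree

open Cfsg.Agent.LieRecognition.ReeAbs Cfsg.Agent.LieRecognition.ReeSylowThree Cfsg.Agent.FixBN.ReeSplit

variable {K : Type*} [Field K] [Fintype K] {m : ℕ} {G : Type u} [Group G] {U : K → K → K → G} {h : Kˣ → G} {n : G}

theorem real_ree (hK : Fintype.card K = 3 ^ (2 * m + 1)) (D : Data m U h n) {p : ℕ} [hp : Fact p.Prime]
    (hp3 : p ≠ 3) (hd : p ∣ Nat.card G) : RowReal p G := by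
  have : Finite G := finite D
  have : Fact (Nat.Prime 3) := ⟨Nat.prime_three⟩
  have hcard := card_eq D
  have hpq : ¬ p ∣ Fintype.card K ^ 3 := by
    rw [hK]
    intro h1
    exact hp3 ((Nat.prime_dvd_prime_iff_eq hp.out Nat.prime_three).1
      (hp.out.dvd_of_dvd_pow (hp.out.dvd_of_dvd_pow h1)))
  have hodd : Odd (Fintype.card K ^ 3) := by
    rw [hK]
    exact Odd.pow (Odd.pow (by decide))
  refine real_of_rank_one (B := bSub D) (n := n) (bruhat' D) ?_ ?_ ?_ ?_
  · rw [index_bSub]
    have h0 : 1 < Fintype.card K := Fintype.one_lt_card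
    have h1 : 1 < Fintype.card K ^ 3 := Nat.one_lt_pow (by norm_num) h0
    omega
  · rw [index_bSub, Nat.add_sub_cancel]
    exact hpq
  · rw [index_bSub, Nat.add_sub_cancel]
    intro h1
    exact (Nat.not_even_iff_odd.2 hodd) (even_iff_two_dvd.2 h1)
  · by_cases h1 : p ∣ (bSub D).index
    · exact Or.inl h1
    · right
      rw [index_bSub] at h1
      rw [hcard, hp.out.dvd_mul, hp.out.dvd_mul] at hd
      have h2 : p ∣ Fintype.card K - 1 := by
        rcases hd with (h | h) | h
        · exact absurd h hpq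
        · exact h
        · exact absurd h h1
      have h2' : p ∣ Nat.card Kˣ := by rwa [Nat.card_units, Nat.card_eq_fintype_card]
      obtain ⟨a, ha⟩ := exists_prime_orderOf_dvd_card' (G := Kˣ) p h2'
      have hp2 : p ≠ 2 := by
        rintro rfl
        exact h1 (hodd.add_one).two_dvd
      have ha2 : a * a ≠ 1 := by
        intro h3
        have h4 : orderOf a ∣ 2 := orderOf_dvd_of_pow_eq_one (by rw [sq]; exact h3)
        rw [ha] at h4
        exact hp2 ((Nat.prime_dvd_prime_iff_eq hp.out Nat.prime_two).1 h4)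
      refine ⟨zpowers (h a), ?_, ?_, cent_h D ha2⟩
      · have hhp : ∀ k : ℕ, h a ^ k = h (a ^ k) := by
          intro k
          induction k with
          | zero => rw [pow_zero, pow_zero, D.h_one]
          | succ k ih => rw [pow_succ, pow_succ, ih, D.h_mul]
        have h4 : h a ^ p = 1 := by rw [hhp, ← ha, pow_orderOf_eq_one, D.h_one]
        obtain ⟨j, -, hj⟩ := (Nat.dvd_prime_pow hp.out (m := 1) (i := orderOf (h a))).1
          (by rw [pow_one]; exact orderOf_dvd_of_pow_eq_one h4)
        exact IsPGroup.of_card (n := j) (by rw [Nat.card_zpowers, hj])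
      · rw [zpowers_le]
        exact h_mem_bSub D a

/-- **`²G₂(q)`, `p ≠ 3`**: the field `ree` of `H706.PB.Rows` -/
theorem rowForR_ree {q : ℕ} [Fact q.Prime] (hq3 : q ≠ 3) : RowForR q (fun X _ => Lie.IsoRee X) := by
  intro X _ _ _ _ hd hX
  obtain ⟨K, _, _, m, hm, hK, ⟨e⟩⟩ := hX
  obtain ⟨U, h, n, D⟩ := Cfsg.Agent.ChevalleyStructure.Ree.Data.exists_data hK
  exact RowReal.congr e (real_ree hK D hq3 (by rwa [Nat.card_congr e.toEquiv] at hd))

end ree

end Cfsg.Agent.H69.PB
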